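import Cfsg.Agent.H9.G168

set_option autoImplicit false

namespace H9

open MulAction Subgroup

theorem klein_comm {G : Type*} [Group G] [Finite G] {U : Subgroup G} (hU : IsKleinFour U) :
    ∀ a ∈ U, ∀ b ∈ U, a * b = b * a := comm_of_sq_eq_one (isKleinFour_iff.1 hU).2

theorem klein_order {G : Type*} [Group G] [Finite G] {U : Subgroup G} (hU : IsKleinFour U)
    {a : G} (ha : a ∈ U) (h1 : a ≠ 1) : orderOf a = 2 :=
  orderOf_two_of ((isKleinFour_iff.1 hU).2 a ha) h1

theorem klein_cases {G : Type*} [Group G] {U : Subgroup G} (hU : IsKleinFour U)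
    {a b : G} (ha : a ∈ U) (hb : b ∈ U) (ha1 : a ≠ 1) (hb1 : b ≠ 1) (hab : a ≠ b) {u : G}
    (hu : u ∈ U) : u = 1 ∨ u = a ∨ u = b ∨ u = a * b := by
  by_contra hc
  push Not at hc
  exact hc.2.2.2 (klein_eq_mul hU ha hb hu ha1 hb1 hab hc.1 hc.2.1 hc.2.2.1)

theorem klein_exists {G : Type*} [Group G] [Finite G] {U : Subgroup G} (hU : IsKleinFour U) :
    ∃ a ∈ U, ∃ b ∈ U, a ≠ 1 ∧ b ≠ 1 ∧ a ≠ b := by
  have : Fact (Nat.Prime 2) := ⟨by norm_num⟩
  obtain ⟨a, ha, oa⟩ := exists_mem_orderOf U 2 (by rw [hU.card_four]; norm_num)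
  obtain ⟨b, hb, hb'⟩ : ∃ b ∈ U, b ∉ zpowers a := by
    by_contra hc
    push Not at hc
    have := card_le_of_le (show U ≤ zpowers a from hc)
    rw [hU.card_four, Nat.card_zpowers, oa] at this
    omega
  exact ⟨a, ha, b, hb, ne_one_of_orderOf oa (by norm_num), fun e => hb' (e ▸ one_mem _),
    fun e => hb' (e ▸ mem_zpowers a)⟩

theorem klein_map_conj {G : Type*} [Group G] [Finite G] {U : Subgroup G} (hU : IsKleinFour U)
    (g : G) : IsKleinFour (U.map (MulAut.conj g).toMonoidHom) := by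
  rw [isKleinFour_iff] at hU ⊢
  refine ⟨(card_map_conj U g).trans hU.1, fun u hu => ?_⟩
  have := hU.2 _ (mem_map_conj.1 hu)
  rwa [← orderOf_dvd_iff_pow_eq_one, orderOf_conj', orderOf_dvd_iff_pow_eq_one] at this

theorem map_conj_map_conj {G : Type*} [Group G] (U : Subgroup G) (g k : G) :
    (U.map (MulAut.conj g).toMonoidHom).map (MulAut.conj k).toMonoidHom =
      U.map (MulAut.conj (k * g)).toMonoidHom := by
  ext a
  simp only [mem_map_conj, mul_inv_rev, mul_assoc]

theorem map_conj_one {G : Type*} [Group G] (U : Subgroup G) :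
    U.map (MulAut.conj (1 : G)).toMonoidHom = U := by
  ext a
  simp only [mem_map_conj, inv_one, one_mul, mul_one]

namespace G168

variable {G : Type*} [Group G] [Finite G] [IsSimpleGroup G] (h : Nat.card G = 168)
include h

theorem klein_not_le {U : Subgroup G} (hU : IsKleinFour U) {b d : G} (hb : b ∈ U) (hd : d ∈ U)
    (hb1 : b ≠ 1) (hd1 : d ≠ 1) (hbd : b ≠ d) : ¬ Cen d ≤ Cen b := by
  intro hle
  have h8 := cen_two h (klein_order hU hd hd1)
  apply not_comm' h h8
  apply comm_of_central_two (le_Cen_of_comm (klein_comm hU) hd) (by rw [h8, hU.card_four])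
  intro u hu t ht
  rcases klein_cases hU hb hd hb1 hd1 hbd hu with rfl | rfl | rfl | rfl
  · simp
  · exact mem_Cen.1 (hle ht)
  · exact mem_Cen.1 ht
  · rw [mul_assoc, mem_Cen.1 ht, ← mul_assoc, mem_Cen.1 (hle ht), mul_assoc]

theorem cen_le_normalizer {U : Subgroup G} (hU : IsKleinFour U) {d : G} (hd : d ∈ U)
    (hd1 : d ≠ 1) : Cen d ≤ normalizer (U : Set G) :=
  le_normalizer_of_two (le_Cen_of_comm (klein_comm hU) hd)
    (by rw [cen_two h (klein_order hU hd hd1), hU.card_four])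

theorem klein_conj {U : Subgroup G} (hU : IsKleinFour U) {b c : G} (hb : b ∈ U) (hc : c ∈ U)
    (hb1 : b ≠ 1) (hc1 : c ≠ 1) : ∃ n ∈ normalizer (U : Set G), n * b * n⁻¹ = c := by
  by_cases hbc : b = c
  · exact ⟨1, one_mem _, by simp [hbc]⟩
  have hd1 : b * c ≠ 1 := fun e => hbc (by
    rw [← inv_eq_of_orderOf_two (klein_order hU hc hc1)]; exact eq_inv_of_mul_eq_one_left e)
  have hbd : b ≠ b * c := fun e => hc1 (by simpa using e)
  obtain ⟨n, hn, hn'⟩ := SetLike.not_le_iff_exists.1 (klein_not_le h hU hb (mul_mem hb hc) hb1 hd1 hbd)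
  have hN := cen_le_normalizer h hU (mul_mem hb hc) hd1 hn
  refine ⟨n, hN, ?_⟩
  rcases klein_cases hU hb hc hb1 hc1 hbc ((mem_normalizer_iff.1 hN b).1 hb) with e | e | e | e
  · exact absurd (by simpa using e) hb1
  · exact absurd (mem_Cen'.2 e) hn'
  · exact e
  · exfalso
    rw [← mem_Cen'.1 hn] at e
    exact hbd (by simpa using e)

theorem klein_card_normalizer {U : Subgroup G} (hU : IsKleinFour U) :
    Nat.card (normalizer (U : Set G)) = 24 := by
  obtain ⟨a, ha, b, hb, ha1, hb1, hab⟩ := klein_exists hU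
  have h1 := card_le h (normalizer_ne_top (H := U)
    (fun e => ha1 (by rw [e] at ha; exact ha))
    (fun e => by have := hU.card_four; rw [e, card_top, h] at this; omega))
  have h2 := card_dvd_of_le (cen_le_normalizer h hU ha ha1)
  rw [cen_two h (klein_order hU ha ha1)] at h2
  have h3 := h ▸ card_subgroup_dvd_card (normalizer (U : Set G))
  have : ∀ d ∈ Nat.divisors 168, 8 ∣ d → d ≤ 24 → d = 8 ∨ d = 24 := by decide +kernel
  refine (this _ (Nat.mem_divisors.2 ⟨h3, by norm_num⟩) h2 h1).resolve_left fun h8 => ?_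
  apply klein_not_le h hU ha hb ha1 hb1 hab
  rw [eq_of_le_of_card_ge (cen_le_normalizer h hU ha ha1)
    (by rw [h8, cen_two h (klein_order hU ha ha1)])]
  exact cen_le_normalizer h hU hb hb1

theorem klein_self_cent {U : Subgroup G} (hU : IsKleinFour U) {g : G}
    (hg : ∀ u ∈ U, u * g = g * u) : g ∈ U := by
  obtain ⟨a, ha, b, hb, ha1, hb1, hab⟩ := klein_exists hU
  have h1 : U ≤ Cen b ⊓ Cen a :=
    le_inf (le_Cen_of_comm (klein_comm hU) hb) (le_Cen_of_comm (klein_comm hU) ha)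
  have h2 : Cen b ⊓ Cen a < Cen b := lt_of_le_of_ne inf_le_left fun e =>
    klein_not_le h hU ha hb ha1 hb1 hab (e ▸ inf_le_right)
  have h3 := H7.card_lt_of_lt h2
  have h4 := card_dvd_of_le h2.le
  rw [cen_two h (klein_order hU hb hb1)] at h3 h4
  have : ∀ d ∈ Nat.divisors 8, d < 8 → d ≤ 4 := by decide
  rw [eq_of_le_of_card_ge h1 (by
    rw [hU.card_four]; exact this _ (Nat.mem_divisors.2 ⟨h4, by norm_num⟩) h3)]
  exact ⟨mem_Cen.2 (hg b hb), mem_Cen.2 (hg a ha)⟩

theorem klein_eq_of_normalizer {U W : Subgroup G} (hU : IsKleinFour U) (hW : IsKleinFour W)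
    (e : normalizer (U : Set G) = normalizer (W : Set G)) : U = W := by
  by_cases hc : ∃ b ∈ U, b ≠ 1 ∧ b ∈ W
  · obtain ⟨b, hb, hb1, hbW⟩ := hc
    apply eq_of_le_of_card_ge _ (by rw [hU.card_four, hW.card_four])
    intro c hc
    by_cases hc1 : c = 1
    · rw [hc1]; exact one_mem _
    obtain ⟨n, hn, rfl⟩ := klein_conj h hU hb hc hb1 hc1
    exact (mem_normalizer_iff.1 (e ▸ hn) b).1 hbW
  · push Not at hc
    symm
    apply eq_of_le_of_card_ge _ (by rw [hU.card_four, hW.card_four])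
    intro w hw
    apply klein_self_cent h hU
    intro u hu
    have h1 : w ∈ normalizer (U : Set G) := e ▸ le_normalizer hw
    have h2 : u ∈ normalizer (W : Set G) := e ▸ le_normalizer hu
    by_contra hne
    refine hc (u * (w * u⁻¹ * w⁻¹)) (mul_mem hu ((mem_normalizer_iff.1 h1 _).1 (inv_mem hu)))
      (fun e => hne ?_) ?_
    · calc u * w = u * (w * u⁻¹ * w⁻¹) * (w * u) := by group
        _ = w * u := by rw [e, one_mul]
    · have := mul_mem ((mem_normalizer_iff.1 h2 _).1 hw) (inv_mem hw)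
      simpa [mul_assoc] using this

theorem sq_mem_klein (T : Sylow 2 G) {v : G} (hv : v ∈ (T : Subgroup G)) (ov : orderOf v = 4)
    {U : Subgroup G} (hU : IsKleinFour U) (hUT : U ≤ T) : v ^ 2 ∈ U :=
  klein_self_cent h hU fun u hu => (mem_Cen.1 ((cen_sq h T hv ov).symm ▸ hUT hu)).symm

theorem klein_inf (T : Sylow 2 G) {v a : G} (hv : v ∈ (T : Subgroup G)) (ov : orderOf v = 4)
    (ha : a ∈ (T : Subgroup G)) (ha' : a ∉ zpowers v) : IsKleinFour ↥(Cen a ⊓ (T : Subgroup G)) := by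
  have key : ∀ u ∈ Cen a ⊓ (T : Subgroup G), orderOf u ≠ 4 := by
    intro u hu ou
    apply ha'
    have h1 : u ∈ zpowers v := by
      by_contra hc
      have := two_of_not_mem h T hv ov hu.2 hc
      omega
    apply zpowers_le.2 h1
    rw [eq_of_le_of_card_ge (zpowers_le_Cen u) (by rw [cen_four h ou, Nat.card_zpowers, ou])]
    exact mem_Cen_comm.1 hu.1
  rw [isKleinFour_iff]
  constructor
  · have h1 := cardT h T ▸ card_dvd_of_le (inf_le_right : Cen a ⊓ (T : Subgroup G) ≤ T)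
    have h2 : Nat.card ↥(Cen a ⊓ (T : Subgroup G)) ≠ 8 := by
      intro e
      apply key v _ ov
      rw [eq_of_le_of_card_ge (inf_le_right : Cen a ⊓ (T : Subgroup G) ≤ T) (by rw [e, cardT h T])]
      exact hv
    have h3 : zpowers (v ^ 2) < Cen a ⊓ (T : Subgroup G) := by
      refine lt_of_le_of_ne (zpowers_le.2 ⟨?_, pow_mem hv 2⟩) fun e => ha' ?_
      · exact mem_Cen_comm.1 ((cen_sq h T hv ov).symm ▸ ha)
      · exact zpowers_le.2 (pow_mem (mem_zpowers v) 2) (e ▸ ⟨self_mem_Cen a, ha⟩)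
    have h4 := H7.card_lt_of_lt h3
    rw [Nat.card_zpowers, orderOf_sq_of_four ov] at h4
    have : ∀ d ∈ Nat.divisors 8, d ≠ 8 → 2 < d → d = 4 := by decide
    exact this _ (Nat.mem_divisors.2 ⟨h1, by norm_num⟩) h2 h4
  · intro u hu
    have h1 := cardT h T ▸ orderOf_dvd_card_of_mem hu.2
    have : ∀ d ∈ Nat.divisors 8, d ≠ 8 → d ≠ 4 → d ∣ 2 := by decide
    exact orderOf_dvd_iff_pow_eq_one.1
      (this _ (Nat.mem_divisors.2 ⟨h1, by norm_num⟩) (order_ne_eight h u) (key u hu))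

theorem two_kleins (T : Sylow 2 G) : ∃ U₁ U₂ : Subgroup G, U₁ ≠ U₂ ∧
    ∀ U : Subgroup G, (U ≤ T ∧ IsKleinFour U) ↔ (U = U₁ ∨ U = U₂) := by
  obtain ⟨v, s, hv, hs, ov, hs', os, e⟩ := exists_gens h T
  have hsv : s * v ∉ zpowers v := fun e => hs' ((mul_mem_cancel_right (mem_zpowers v)).1 e)
  have k1 := klein_inf h T hv ov hs hs'
  have k2 := klein_inf h T hv ov (mul_mem hs hv) hsv
  refine ⟨Cen s ⊓ T, Cen (s * v) ⊓ T, fun e => ?_, fun U => ⟨?_, ?_⟩⟩
  · have h1 : s * v ∈ Cen s ⊓ (T : Subgroup G) := e ▸ ⟨self_mem_Cen _, mul_mem hs hv⟩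
    have h2 : v ∈ Cen s ⊓ (T : Subgroup G) :=
      (mul_mem_cancel_left (show s ∈ Cen s ⊓ (T : Subgroup G) from ⟨self_mem_Cen _, hs⟩)).1 h1
    have := klein_order k1 h2 (ne_one_of_orderOf ov (by norm_num))
    omega
  · rintro ⟨hUT, hU⟩
    have key : ∀ b ∈ U, IsKleinFour ↥(Cen b ⊓ (T : Subgroup G)) → U = Cen b ⊓ T := fun b hb hk =>
      eq_of_le_of_card_ge (le_inf (le_Cen_of_comm (klein_comm hU) hb) hUT)
        (by rw [hU.card_four, hk.card_four])
    have hz := sq_mem_klein h T hv ov hU hUT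
    obtain ⟨a, ha, ha'⟩ : ∃ a ∈ U, a ∉ zpowers v := by
      by_contra hc
      push Not at hc
      have h1 : U = zpowers v := eq_of_le_of_card_ge hc (by rw [hU.card_four, Nat.card_zpowers, ov])
      have := klein_order hU (h1 ▸ mem_zpowers v) (ne_one_of_orderOf ov (by norm_num))
      omega
    have h1 := mul_mem_of_two (zpowers_le.2 hv) (by rw [cardT h T, Nat.card_zpowers, ov])
      (inv_mem hs) (hUT ha) (by simpa using hs') ha'
    rcases (mem_zpowers_four ov).1 h1 with e | e | e | e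
    · left
      exact key s (by rwa [inv_mul_eq_one.1 e]) k1
    · right
      exact key _ (by rwa [← inv_mul_eq_iff_eq_mul.1 e]) k2
    · left
      refine key s ?_ k1
      have := mul_mem ha (inv_mem hz)
      rwa [inv_mul_eq_iff_eq_mul.1 e, mul_inv_cancel_right] at this
    · right
      refine key _ ?_ k2
      have := mul_mem ha hz
      rwa [inv_mul_eq_iff_eq_mul.1 e, sq, mul_assoc, inv_mul_cancel_left] at this
  · rintro (rfl | rfl)
    · exact ⟨inf_le_right, k1⟩
    · exact ⟨inf_le_right, k2⟩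

theorem kleins_not_conj (T : Sylow 2 G) {U W : Subgroup G} (hUT : U ≤ T) (hWT : W ≤ T)
    (hU : IsKleinFour U) (hW : IsKleinFour W) (hne : U ≠ W) (g : G) :
    U.map (MulAut.conj g).toMonoidHom ≠ W := by
  intro e
  apply hne
  obtain ⟨v, hv, ov⟩ := exists_four h T
  have hz1 := ne_one_of_orderOf (orderOf_sq_of_four ov) (by norm_num)
  have hm : ∀ u ∈ U, g * u * g⁻¹ ∈ W := fun u hu => e ▸ mem_map_conj.2 (by simpa [mul_assoc])
  obtain ⟨n, hn, hn'⟩ := klein_conj h hW (hm _ (sq_mem_klein h T hv ov hU hUT))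
    (sq_mem_klein h T hv ov hW hWT) (by simpa using hz1) hz1
  have h1 : n * g ∈ normalizer (U : Set G) := by
    apply cen_le_normalizer h hU (sq_mem_klein h T hv ov hU hUT) hz1
    rw [mem_Cen', ← hn']
    conv_lhs => rw [hn']
    group
  apply eq_of_le_of_card_ge _ (by rw [hU.card_four, hW.card_four])
  intro u hu
  have := (mem_normalizer_iff.1 hn _).1 (hm _ ((mem_normalizer_iff''.1 h1 u).1 hu))
  simpa [mul_assoc] using this

theorem klein_iso {U : Subgroup G} (hU : IsKleinFour U) :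
    Nonempty (↥(normalizer (U : Set G)) ≃* Equiv.Perm (Fin 4)) :=
  iso_S4 (klein_card_normalizer h hU) fun g e => by
    have := orders h (g : G)
    rw [Subgroup.orderOf_coe] at this
    omega

theorem le_Nor_of_seven {M : Subgroup G} (hM : M ≠ ⊤) (h7 : 7 ∣ Nat.card M) :
    ∃ x : G, orderOf x = 7 ∧ M ≤ Nor x := by
  have : Fact (Nat.Prime 7) := ⟨by norm_num⟩
  obtain ⟨x, hx, ox⟩ := exists_mem_orderOf M 7 h7
  obtain ⟨m, hm⟩ := h7
  have h1 := card_le h hM
  obtain ⟨n, hn1, hn2⟩ := relIndex_normalizer_modEq (p := 7) (k := 1) (m := m) (zpowers x) M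
    (zpowers_le.2 hx) (by rw [hm, pow_one]) (fun hd => by
      have := Nat.le_of_dvd (Nat.pos_of_ne_zero (by rintro rfl; exact Nat.card_pos.ne' hm)) hd
      omega) (by rw [Nat.card_zpowers, ox]; norm_num)
  have h2 : 7 ∣ Nat.card ↥(Nor x ⊓ M) :=
    ox ▸ orderOf_dvd_card_of_mem ⟨Cen_le_Nor x (self_mem_Cen x), hx⟩
  have h3 := Nat.le_of_dvd Nat.card_pos h2
  change Nat.card M = n * Nat.card ↥(Nor x ⊓ M) at hn2
  have h4 : n = 1 := by
    unfold Nat.ModEq at hn1
    have : n < 4 := by nlinarith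
    omega
  refine ⟨x, ox, ?_⟩
  rw [← eq_of_le_of_card_ge (inf_le_right : Nor x ⊓ M ≤ M) (by rw [hn2, h4, one_mul])]
  exact inf_le_left

theorem sylow3_in {M : Subgroup G} (hM : M ≠ ⊤) {y : G} (hy : y ∈ M) (oy : orderOf y = 3) :
    ∃ n, n % 3 = 1 ∧ Nat.card M = n * Nat.card ↥(Nor y ⊓ M) ∧ Nat.card ↥(Nor y ⊓ M) ∣ 6 := by
  have : Fact (Nat.Prime 3) := ⟨by norm_num⟩
  obtain ⟨m, hm⟩ := oy ▸ orderOf_dvd_card_of_mem hy
  have h1 := h ▸ card_subgroup_dvd_card M
  obtain ⟨n, hn1, hn2⟩ := relIndex_normalizer_modEq (p := 3) (k := 1) (m := m) (zpowers y) M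
    (zpowers_le.2 hy) (by rw [hm, pow_one]) (fun hd => by
      have : 9 ∣ 168 := (hm ▸ Nat.mul_dvd_mul_left 3 hd).trans h1
      omega) (by rw [Nat.card_zpowers, oy]; norm_num)
  exact ⟨n, hn1, hn2, (three h oy).2.1 ▸ card_dvd_of_le inf_le_left⟩

theorem twelve {M A : Subgroup G} (hA : Nat.card A = 12) (hM : M ≤ normalizer (A : Set G)) :
    ∃ U : Subgroup G, IsKleinFour U ∧ M ≤ normalizer (U : Set G) := by
  have : Fact (Nat.Prime 3) := ⟨by norm_num⟩
  have : Fact (Nat.Prime 2) := ⟨by norm_num⟩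
  obtain ⟨y, hy, oy⟩ := exists_mem_orderOf A 3 (by rw [hA]; norm_num)
  have hAt : A ≠ ⊤ := fun e => by rw [e, card_top, h] at hA; omega
  -- eight elements of order three
  have h8 : Nat.card {g : G // g ∈ A ∧ orderOf g = 3} = 8 := by
    have g3 : Nat.card A = 3 * 4 := hA
    have oy' : orderOf (⟨y, hy⟩ : A) = 3 := by rw [← oy, ← Subgroup.orderOf_coe]
    have h1 := card_orderOf_eq_prime g3 (by norm_num) oy'
    have h2 := index_Nor_modEq g3 (by norm_num) oy'
    have h3 := hA ▸ (Nor (⟨y, hy⟩ : A)).index_dvd_card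
    have h4 : (Nor (⟨y, hy⟩ : A)).index ≠ 1 := by
      intro e
      rw [index_eq_one] at e
      have : A ≤ Nor y := by
        intro a ha
        obtain ⟨k, hk⟩ := mem_Nor.1 (e ▸ mem_top (⟨a, ha⟩ : A) : (⟨a, ha⟩ : A) ∈ Nor (⟨y, hy⟩ : A))
        exact mem_Nor.2 ⟨k, congrArg Subtype.val hk⟩
      have := card_le_of_le this
      rw [hA, (three h oy).2.1] at this
      omega
    have : ∀ d ∈ Nat.divisors 12, d % 3 = 1 % 3 → d ≠ 1 → d = 4 := by decide
    rw [this _ (Nat.mem_divisors.2 ⟨h3, by norm_num⟩) h2 h4] at h1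
    refine Eq.trans ?_ h1
    exact Nat.card_congr ⟨fun g => ⟨⟨g.1, g.2.1⟩, (Subgroup.orderOf_mk _ _).trans g.2.2⟩,
      fun g => ⟨g.1.1, g.1.2, (Subgroup.orderOf_coe _).trans g.2⟩, fun g => rfl, fun g => rfl⟩
  obtain ⟨W, hW⟩ := Sylow.exists_subgroup_card_pow_prime (G := A) 2 (n := 2) (by rw [hA]; norm_num)
  have hU : Nat.card (W.map A.subtype) = 4 := by rw [card_subtype, hW]; norm_num
  have hUA : W.map A.subtype ≤ A := map_subtype_le W
  generalize W.map A.subtype = U at hU hUA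
  have h4 := card_subtype_split (fun g : G => g ∈ A) (fun g => orderOf g = 3)
  change Nat.card A = _ at h4
  have hchar := imp_of_card_le (A := fun g => g ∈ U) (B := fun g => g ∈ A ∧ ¬ orderOf g = 3)
    (fun g hg => ⟨hUA hg, fun e => by
      have := orderOf_dvd_card_of_mem hg
      rw [e, hU] at this; omega⟩) (by change _ ≤ Nat.card U; omega)
  have hnorm : normalizer (A : Set G) ≤ normalizer (U : Set G) := by
    intro g hg
    apply mem_normalizer_of_conj_mem
    intro u hu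
    refine hchar _ ⟨(mem_normalizer_iff.1 hg u).1 (hUA hu), fun e => ?_⟩
    have := orderOf_dvd_card_of_mem hu
    rw [← orderOf_conj u g, e, hU] at this
    omega
  refine ⟨U, isKleinFour_iff.2 ⟨hU, fun u hu => ?_⟩, hM.trans hnorm⟩
  have h1 := hU ▸ orderOf_dvd_card_of_mem hu
  have h2 : orderOf u ≠ 4 := by
    intro ou
    have h5 : zpowers u = U := eq_of_le_of_card_ge (zpowers_le.2 hu) (by rw [hU, Nat.card_zpowers, ou])
    obtain ⟨e, he, hN⟩ := exists_card_Nor u
    have h6 : y ∈ Nor u := by rw [Nor, h5]; exact hnorm (le_normalizer hy)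
    have h7 := orderOf_dvd_card_of_mem h6
    rw [oy, hN, cen_four h ou] at h7
    rw [ou] at he
    have : ∀ d ∈ Nat.divisors 2, ¬ 3 ∣ d * 4 := by decide
    exact this _ (Nat.mem_divisors.2 ⟨he, by norm_num⟩) h7
  have : ∀ d ∈ Nat.divisors 4, d ≠ 4 → d ∣ 2 := by decide
  exact orderOf_dvd_iff_pow_eq_one.1 (this _ (Nat.mem_divisors.2 ⟨h1, by norm_num⟩) h2)

theorem le_klein_of_iso {M : Subgroup G} (e : M ≃* Equiv.Perm (Fin 4)) :
    ∃ U : Subgroup G, IsKleinFour U ∧ M ≤ normalizer (U : Set G) := by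
  have hM : Nat.card M = 24 := by
    rw [Nat.card_congr e.toEquiv, Nat.card_perm, Nat.card_fin]; decide
  let A : Subgroup M := (alternatingGroup (Fin 4)).comap e.toMonoidHom
  have hi : A.index = 2 := by
    rw [index_comap_of_surjective _ e.surjective, alternatingGroup.index_eq_two]
  have hA : Nat.card (A.map M.subtype) = 12 := by
    have := A.index_mul_card
    rw [hi, hM] at this
    rw [card_subtype]; omega
  exact twelve h hA (le_normalizer_of_two (map_subtype_le A) (by rw [hM, hA]))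

theorem le_max {M : Subgroup G} (hM : M ≠ ⊤) : (∃ x : G, orderOf x = 7 ∧ M ≤ Nor x) ∨
    ∃ U : Subgroup G, IsKleinFour U ∧ M ≤ normalizer (U : Set G) := by
  have : Fact (Nat.Prime 3) := ⟨by norm_num⟩
  have : Fact (Nat.Prime 2) := ⟨by norm_num⟩
  by_cases h7 : 7 ∣ Nat.card M
  · exact Or.inl (le_Nor_of_seven h hM h7)
  right
  have hd := Nat.mem_divisors.2 ⟨h ▸ card_subgroup_dvd_card M, (by norm_num : 168 ≠ 0)⟩
  have hk : ∀ T : Sylow 2 G, ∃ U : Subgroup G, IsKleinFour U ∧ (T : Subgroup G) ≤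
      normalizer (U : Set G) := by
    intro T
    obtain ⟨U, W, -, hUW⟩ := two_kleins h T
    obtain ⟨h1, h2⟩ := (hUW U).2 (Or.inl rfl)
    exact ⟨U, h2, le_normalizer_of_two h1 (by rw [cardT h T, h2.card_four])⟩
  by_cases h3 : 3 ∣ Nat.card M
  · obtain ⟨y, hy, oy⟩ := exists_mem_orderOf M 3 h3
    have : ∀ d ∈ Nat.divisors 168, ¬ 7 ∣ d → 3 ∣ d → d ≤ 6 ∨ d = 12 ∨ d = 24 := by
      decide +kernel
    rcases this _ hd h7 h3 with h6 | h12 | h24
    · obtain ⟨n, hn1, hn2, hn3⟩ := sylow3_in h hM hy oy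
      have h2 : 3 ∣ Nat.card ↥(Nor y ⊓ M) :=
        oy ▸ orderOf_dvd_card_of_mem ⟨Cen_le_Nor y (self_mem_Cen y), hy⟩
      have h4 := Nat.le_of_dvd Nat.card_pos h2
      have h5 : n = 1 := by
        have : n < 3 := by nlinarith
        omega
      have h8 : M ≤ Nor y := by
        rw [← eq_of_le_of_card_ge (inf_le_right : Nor y ⊓ M ≤ M) (by rw [hn2, h5, one_mul])]
        exact inf_le_left
      obtain ⟨T⟩ : Nonempty (Sylow 2 G) := inferInstance
      obtain ⟨U, hU, -⟩ := hk T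
      have hN := klein_card_normalizer h hU
      obtain ⟨x, hx, ox⟩ := exists_mem_orderOf _ 3 (by rw [hN]; norm_num)
      obtain ⟨n, hn1, hn2, hn3⟩ := sylow3_in h (M := normalizer (U : Set G))
        (fun e => by rw [e, card_top, h] at hN; omega) hx ox
      have h9 : Nat.card ↥(Nor x ⊓ normalizer (U : Set G)) = 6 := by
        rw [hN] at hn2
        have : ∀ d ∈ Nat.divisors 6, ∀ n ∈ Nat.divisors 24, 24 = n * d → n % 3 = 1 → d = 6 := by
          decide
        exact this _ (Nat.mem_divisors.2 ⟨hn3, by norm_num⟩) n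
          (Nat.mem_divisors.2 ⟨hn2 ▸ dvd_mul_right _ _, by norm_num⟩) hn2 hn1
      have h10 : Nor x ≤ normalizer (U : Set G) := by
        rw [← eq_of_le_of_card_ge (inf_le_left : Nor x ⊓ normalizer (U : Set G) ≤ Nor x)
          (by rw [h9, (three h ox).2.1])]
        exact inf_le_right
      obtain ⟨g, hg⟩ := exists_Nor_eq_map_conj (m := 56) h (by norm_num) oy ox
      refine ⟨_, klein_map_conj hU g, h8.trans ?_⟩
      rw [hg, normalizer_map_conj]
      exact map_mono h10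
    · exact twelve h h12 le_normalizer
    · obtain ⟨e⟩ := iso_S4 h24 fun g e => by
        have := orders h (g : G)
        rw [Subgroup.orderOf_coe] at this
        omega
      exact le_klein_of_iso h e
  · have : ∀ d ∈ Nat.divisors 168, ¬ 7 ∣ d → ¬ 3 ∣ d → d ∣ 2 ^ 3 := by decide +kernel
    obtain ⟨T, hT⟩ := (IsPGroup.of_card_dvd_pow (this _ hd h7 h3)).exists_le_sylow
    obtain ⟨U, hU, hU'⟩ := hk T
    exact ⟨U, hU, hT.trans hU'⟩

theorem klein_coatom {U : Subgroup G} (hU : IsKleinFour U) : IsCoatom (normalizer (U : Set G)) := by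
  have hN := klein_card_normalizer h hU
  refine ⟨fun e => by rw [e, card_top, h] at hN; omega, fun K hK => ?_⟩
  by_contra hc
  have h1 := card_le h hc
  have h2 := H7.card_lt_of_lt hK
  omega

end G168
end H9
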